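import Mathlib
import Cfsg.Prelude.Def_TwoFusion

/-! lead: definitions for the S2221 team project (direct decomposability of the Sylow
2-subgroups of the alternating groups). Everything is phrased for a subgroup `T` of
`Equiv.Perm α` that is a Sylow 2-subgroup in the unbundled sense `IsSyl2`. -/

namespace Cfsg.Agent.Lib.Lead.SylAlt

open Equiv

variable {α : Type*}

/-- `T` is a Sylow 2-subgroup of `Perm α`, unbundled: a 2-group that is maximal among 2-subgroups. -/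
def IsSyl2 (T : Subgroup (Perm α)) : Prop :=
  IsPGroup 2 T ∧ ∀ Q : Subgroup (Perm α), IsPGroup 2 Q → T ≤ Q → Q = T

/-- The elements of `T` fixing every point outside `O`. -/
def res (T : Subgroup (Perm α)) (O : Set α) : Subgroup (Perm α) where
  carrier := {g | g ∈ T ∧ ∀ x, x ∉ O → g x = x}
  mul_mem' := by
    rintro a b ⟨ha, ha'⟩ ⟨hb, hb'⟩
    exact ⟨T.mul_mem ha hb, fun x hx => by rw [Perm.mul_apply, hb' x hx, ha' x hx]⟩
  one_mem' := ⟨T.one_mem, fun x _ => rfl⟩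
  inv_mem' := by
    rintro a ⟨ha, ha'⟩
    exact ⟨T.inv_mem ha, fun x hx => by rw [Perm.inv_eq_iff_eq]; exact (ha' x hx).symm⟩

theorem mem_res {T : Subgroup (Perm α)} {O : Set α} {g : Perm α} :
    g ∈ res T O ↔ g ∈ T ∧ ∀ x, x ∉ O → g x = x := Iff.rfl

theorem res_le (T : Subgroup (Perm α)) (O : Set α) : res T O ≤ T := fun _ h => h.1

/-- The orbit of `x` under `T`, as a set. -/
def orb (T : Subgroup (Perm α)) (x : α) : Set α := {y | ∃ g ∈ T, g x = y}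

theorem mem_orb {T : Subgroup (Perm α)} {x y : α} : y ∈ orb T x ↔ ∃ g ∈ T, g x = y := Iff.rfl

theorem mem_orb_self (T : Subgroup (Perm α)) (x : α) : x ∈ orb T x := ⟨1, T.one_mem, rfl⟩

theorem orb_inv (T : Subgroup (Perm α)) (x : α) : ∀ g ∈ T, ∀ y ∈ orb T x, g y ∈ orb T x := by
  rintro g hg y ⟨h, hh, rfl⟩
  exact ⟨g * h, T.mul_mem hg hh, rfl⟩

theorem orb_trans (T : Subgroup (Perm α)) (x : α) :
    ∀ y ∈ orb T x, ∀ z ∈ orb T x, ∃ g ∈ T, g y = z := by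
  rintro y ⟨h, hh, rfl⟩ z ⟨k, hk, rfl⟩
  exact ⟨k * h⁻¹, T.mul_mem hk (T.inv_mem hh), by simp⟩

/-- The `T`-orbit of `x` has at least three points. -/
def Bigp (T : Subgroup (Perm α)) (x : α) : Prop := ∀ y : α, ∃ g ∈ T, g x ≠ x ∧ g x ≠ y

/-- The `T`-orbit of `x` has exactly two points. -/
def Two (T : Subgroup (Perm α)) (x : α) : Prop :=
  ∃ y, y ≠ x ∧ (∃ g ∈ T, g x = y) ∧ ∀ g ∈ T, g x = x ∨ g x = y

/-- `Q` is the internal direct product of two nontrivial subgroups. -/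
def Dec (Q : Subgroup (Perm α)) : Prop :=
  ∃ S₁ S₂ : Subgroup (Perm α), S₁ ≠ ⊥ ∧ S₂ ≠ ⊥ ∧ Cfsg.IsInternalDirectProduct S₁ S₂ Q

theorem res_comm {T : Subgroup (Perm α)} {O : Set α} {a b : Perm α}
    (ha : a ∈ res T O) (hb : b ∈ res T Oᶜ) : a * b = b * a := by
  have hd : Perm.Disjoint a b := by
    intro x
    by_cases hx : x ∈ O
    · right; exact hb.2 x (fun h => h hx)
    · left; exact ha.2 x hx
  exact hd.commute.eq

/-- The `O`-parts of the elements of `S`: those `a ∈ res T O` with `a * b ∈ S` for some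
`b ∈ res T Oᶜ`. -/
def proj (T : Subgroup (Perm α)) (O : Set α) (S : Subgroup (Perm α)) : Subgroup (Perm α) where
  carrier := {a | a ∈ res T O ∧ ∃ b ∈ res T Oᶜ, a * b ∈ S}
  mul_mem' := by
    rintro a a' ⟨ha, b, hb, hab⟩ ⟨ha', b', hb', hab'⟩
    refine ⟨(res T O).mul_mem ha ha', b * b', (res T Oᶜ).mul_mem hb hb', ?_⟩
    have h : a * a' * (b * b') = a * b * (a' * b') := by
      rw [mul_assoc, ← mul_assoc a' b b', res_comm ha' hb, mul_assoc, ← mul_assoc]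
    rw [h]; exact S.mul_mem hab hab'
  one_mem' := ⟨(res T O).one_mem, 1, (res T Oᶜ).one_mem, by rw [mul_one]; exact S.one_mem⟩
  inv_mem' := by
    rintro a ⟨ha, b, hb, hab⟩
    refine ⟨(res T O).inv_mem ha, b⁻¹, (res T Oᶜ).inv_mem hb, ?_⟩
    have h : a⁻¹ * b⁻¹ = (a * b)⁻¹ := by rw [mul_inv_rev, ← res_comm ((res T O).inv_mem ha) ((res T Oᶜ).inv_mem hb)]
    rw [h]; exact S.inv_mem hab

theorem mem_proj {T : Subgroup (Perm α)} {O : Set α} {S : Subgroup (Perm α)} {a : Perm α} :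
    a ∈ proj T O S ↔ a ∈ res T O ∧ ∃ b ∈ res T Oᶜ, a * b ∈ S := Iff.rfl

theorem proj_le (T : Subgroup (Perm α)) (O : Set α) (S : Subgroup (Perm α)) : proj T O S ≤ res T O :=
  fun _ h => h.1

/-- Conclusion of piece SPLIT. -/
def HSplit (T : Subgroup (Perm α)) : Prop :=
  ∀ O : Set α, (∀ g ∈ T, ∀ x ∈ O, g x ∈ O) →
    ∀ g ∈ T, ∃ a ∈ res T O, ∃ b ∈ res T Oᶜ, g = a * b

/-- Conclusion of piece ORB4. -/
def HOrb4 (T : Subgroup (Perm α)) : Prop :=
  ∀ S : Finset α, (∀ g ∈ T, ∀ x ∈ S, g x ∈ S) → (∀ x ∈ S, Bigp T x) → 4 ∣ S.card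

/-- Conclusion of piece ZONEA. -/
def HZone (T : Subgroup (Perm α)) : Prop :=
  ∀ x : α, Bigp T x → ∀ c c' : Perm α, c ∈ res T (orb T x) → c' ∈ res T (orb T x) → c ≠ 1 → c' ≠ 1 →
    (∀ g ∈ res T (orb T x), g * c = c * g) → (∀ g ∈ res T (orb T x), g * c' = c' * g) → c = c'

/-- Conclusion of piece NONAB. -/
def HNonab (T : Subgroup (Perm α)) : Prop :=
  ∀ x : α, Bigp T x → ∃ a ∈ res T (orb T x), ∃ b ∈ res T (orb T x), a * b ≠ b * a

/-- Conclusion of piece CENT. -/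
def HCent (T : Subgroup (Perm α)) : Prop :=
  ∀ x : α, Bigp T x → ∀ A B : Subgroup (Perm α), A ≤ res T (orb T x) → B ≤ res T (orb T x) →
    (∀ a ∈ A, ∀ b ∈ B, a * b = b * a) → A ⊔ B = res T (orb T x) →
    (∀ a ∈ A, ∀ w ∈ res T (orb T x), a * w = w * a) ∨ (∀ b ∈ B, ∀ w ∈ res T (orb T x), b * w = w * b)

section
variable [DecidableEq α]

/-- Conclusion of piece TRANSP. -/
def HTr (T : Subgroup (Perm α)) : Prop :=
  ∀ x : α, (∃ g ∈ T, g x ≠ x) → ∃ y, y ≠ x ∧ swap x y ∈ T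

variable [Fintype α]

/-- Conclusion of piece ZEVEN. -/
def HZeven (T : Subgroup (Perm α)) : Prop :=
  ∀ c ∈ T, (∀ g ∈ T, g * c = c * g) → Perm.sign c = 1

end

end Cfsg.Agent.Lib.Lead.SylAlt
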