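import Mathlib
import Cfsg.Agent.Lib.Lead.SylAlt.Defs
import Cfsg.Agent.H12.SylAltSplit
import Cfsg.Agent.H80.SylAltTransp
import Cfsg.Agent.H80.SylAltOrb4
import Cfsg.Agent.H78.SylAltZeven
import Cfsg.Agent.H78.SylAltZoneA
import Cfsg.Agent.H11.SylAltZoneB
import Cfsg.Agent.H12.SylAltNonab
import Cfsg.Agent.H3.SylAltCent
import Cfsg.Agent.H89.SylAltProjSup
import Cfsg.Agent.H51.SylAltNoMixed
import Cfsg.Agent.H51.SylAltEndgame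
import Cfsg.Agent.H12.SylAltAbs1
import Cfsg.Agent.H14.SylAltDec2
import Cfsg.Agent.H78.SylAltInd2
import Cfsg.Agent.H89.SylAltSmall45
import Cfsg.Agent.H89.SylAltLift
import Cfsg.Agent.H14.SylAltArith1
import Cfsg.Agent.H11.SylAltArith2

/-! lead: the S2221 pieces, re-exported under fixed names (each proved in a helper's file). -/

namespace Cfsg.Agent.Lib.Lead.SylAlt

open Equiv

variable {α : Type*} [Fintype α] [DecidableEq α]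

theorem p_split (T : Subgroup (Perm α)) (hT : IsSyl2 T) : HSplit T :=
  Cfsg.Agent.H12.SylAlt.split T hT

theorem p_transp (T : Subgroup (Perm α)) (hT : IsSyl2 T) : HTr T :=
  Cfsg.Agent.H80.SylAlt.transp T hT

theorem p_orb4 (T : Subgroup (Perm α)) (h2 : IsPGroup 2 T) : HOrb4 T :=
  Cfsg.Agent.H80.SylAlt.orb4 T h2

theorem p_zeven (T : Subgroup (Perm α)) (hT : IsSyl2 T) (hno2 : ∀ x, ¬ Two T x)
    (htr : HTr T) (h4 : HOrb4 T) : HZeven T :=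
  Cfsg.Agent.H78.SylAlt.zeven T hT hno2 htr h4

theorem p_zoneA (T : Subgroup (Perm α)) (hT : IsSyl2 T) (hs : HSplit T) (htr : HTr T) : HZone T :=
  Cfsg.Agent.H78.SylAlt.zoneA T hT hs htr

theorem p_zoneB (T : Subgroup (Perm α)) (hT : IsSyl2 T) (hs : HSplit T) (htr : HTr T)
    (x : α) (h8 : 8 ≤ (orb T x).ncard) (c c' : Perm α)
    (hc : c ∈ res T (orb T x) ⊓ alternatingGroup α) (hc' : c' ∈ res T (orb T x) ⊓ alternatingGroup α)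
    (hc1 : c ≠ 1) (hc1' : c' ≠ 1)
    (hcen : ∀ g ∈ res T (orb T x) ⊓ alternatingGroup α, g * c = c * g)
    (hcen' : ∀ g ∈ res T (orb T x) ⊓ alternatingGroup α, g * c' = c' * g) : c = c' :=
  Cfsg.Agent.H11.SylAlt.zoneB T hT hs htr x h8 c c' hc hc' hc1 hc1' hcen hcen'

theorem p_nonab (T : Subgroup (Perm α)) (hT : IsSyl2 T) (hs : HSplit T) (htr : HTr T) : HNonab T :=
  Cfsg.Agent.H12.SylAlt.nonab T hT hs htr

theorem p_cent (T : Subgroup (Perm α)) (hT : IsSyl2 T) (hs : HSplit T) (htr : HTr T) : HCent T :=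
  Cfsg.Agent.H3.SylAlt.cent T hT hs htr

theorem p_proj_sup (T : Subgroup (Perm α)) (hT : IsSyl2 T) (hs : HSplit T) (x : α)
    (t' : Perm α) (ht' : t' ∈ res T (orb T x)ᶜ) (hodd : Perm.sign t' = -1)
    (S₁ S₂ : Subgroup (Perm α))
    (hS : Cfsg.IsInternalDirectProduct S₁ S₂ (T ⊓ alternatingGroup α)) :
    (∀ a ∈ proj T (orb T x) S₁, ∀ b ∈ proj T (orb T x) S₂, a * b = b * a) ∧
      proj T (orb T x) S₁ ⊔ proj T (orb T x) S₂ = res T (orb T x) :=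
  Cfsg.Agent.H89.SylAlt.proj_sup T hT hs x t' ht' hodd S₁ S₂ hS

theorem p_no_mixed (T : Subgroup (Perm α)) (hT : IsSyl2 T) (hs : HSplit T) (hz : HZeven T)
    (x x' : α) (hxx' : ¬ ∃ g ∈ T, g x = x')
    (t t' : Perm α) (ht : t ∈ res T (orb T x)) (ht' : t' ∈ res T (orb T x'))
    (hodd : Perm.sign t = -1) (hodd' : Perm.sign t' = -1)
    (S₁ S₂ : Subgroup (Perm α))
    (hS : Cfsg.IsInternalDirectProduct S₁ S₂ (T ⊓ alternatingGroup α))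
    (h1 : ∀ b ∈ proj T (orb T x) S₂, ∀ w ∈ res T (orb T x), b * w = w * b)
    (h2 : ∀ a ∈ proj T (orb T x') S₁, ∀ w ∈ res T (orb T x'), a * w = w * a) : False :=
  Cfsg.Agent.H51.SylAlt.no_mixed T hT hs hz x x' hxx' t t' ht ht' hodd hodd' S₁ S₂ hS h1 h2

theorem p_endgame (T : Subgroup (Perm α)) (hT : IsSyl2 T) (hno2 : ∀ x, ¬ Two T x)
    (hs : HSplit T) (htr : HTr T) (hzone : HZone T) (hnonab : HNonab T)
    (x₁ x₂ : α) (h₁ : Bigp T x₁) (h₂ : Bigp T x₂) (h12 : ¬ ∃ g ∈ T, g x₁ = x₂)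
    (S₁ S₂ : Subgroup (Perm α))
    (hS : Cfsg.IsInternalDirectProduct S₁ S₂ (T ⊓ alternatingGroup α))
    (hcen : ∀ x, Bigp T x → ∀ a ∈ proj T (orb T x) S₁, ∀ w ∈ res T (orb T x), a * w = w * a) :
    S₁ = ⊥ :=
  Cfsg.Agent.H51.SylAlt.endgame T hT hno2 hs htr hzone hnonab x₁ x₂ h₁ h₂ h12 S₁ S₂ hS hcen

theorem p_abs1 {G : Type*} [Group G] [Finite G] (Q : Subgroup G) (hQ : IsPGroup 2 Q)
    (huniq : ∀ c c' : G, c ∈ Q → c' ∈ Q → c ≠ 1 → c' ≠ 1 → (∀ g ∈ Q, g * c = c * g) →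
      (∀ g ∈ Q, g * c' = c' * g) → c = c')
    (S₁ S₂ : Subgroup G) (h₁ : S₁ ≠ ⊥) (h₂ : S₂ ≠ ⊥)
    (hS : Cfsg.IsInternalDirectProduct S₁ S₂ Q) : False :=
  Cfsg.Agent.H12.SylAlt.abs1 Q hQ huniq S₁ S₂ h₁ h₂ hS

theorem p_dec_two (T : Subgroup (Perm α)) (hT : IsSyl2 T) (hs : HSplit T) (htr : HTr T)
    (x₀ : α) (h0 : Two T x₀) (x₁ x₂ : α) (h₁ : Bigp T x₁) (h₂ : Bigp T x₂)
    (h12 : ¬ ∃ g ∈ T, g x₁ = x₂) : Dec (T ⊓ alternatingGroup α) :=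
  Cfsg.Agent.H14.SylAlt.dec_two T hT hs htr x₀ h0 x₁ x₂ h₁ h₂ h12

theorem p_ind_two (T : Subgroup (Perm α)) (hT : IsSyl2 T) (hs : HSplit T) (htr : HTr T) (hzone : HZone T)
    (x₀ : α) (h0 : Two T x₀) (x₁ : α) (h₁ : Bigp T x₁)
    (hone : ∀ x, Bigp T x → ∃ g ∈ T, g x₁ = x)
    (htwo : ∀ x, Two T x → ∃ g ∈ T, g x₀ = x)
    (c c' : Perm α) (hc : c ∈ T ⊓ alternatingGroup α) (hc' : c' ∈ T ⊓ alternatingGroup α)
    (hc1 : c ≠ 1) (hc1' : c' ≠ 1)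
    (hcen : ∀ g ∈ T ⊓ alternatingGroup α, g * c = c * g)
    (hcen' : ∀ g ∈ T ⊓ alternatingGroup α, g * c' = c' * g) : c = c' :=
  Cfsg.Agent.H78.SylAlt.ind_two T hT hs htr hzone x₀ h0 x₁ h₁ hone htwo c c' hc hc' hc1 hc1' hcen hcen'

theorem p_small45 (n : ℕ) (hn : n = 4 ∨ n = 5) (P : Sylow 2 (alternatingGroup (Fin n))) :
    ∃ S₁ S₂ : Subgroup (alternatingGroup (Fin n)), S₁ ≠ ⊥ ∧ S₂ ≠ ⊥ ∧
      Cfsg.IsInternalDirectProduct S₁ S₂ (P : Subgroup (alternatingGroup (Fin n))) :=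
  Cfsg.Agent.H89.SylAlt.small45 n hn P

theorem p_lift (n : ℕ) (P : Sylow 2 (alternatingGroup (Fin n))) :
    ∃ T : Subgroup (Perm (Fin n)), IsSyl2 T ∧
      ((∃ S₁ S₂ : Subgroup (alternatingGroup (Fin n)), S₁ ≠ ⊥ ∧ S₂ ≠ ⊥ ∧
          Cfsg.IsInternalDirectProduct S₁ S₂ (P : Subgroup (alternatingGroup (Fin n)))) ↔
        Dec (T ⊓ alternatingGroup (Fin n))) :=
  Cfsg.Agent.H89.SylAlt.lift n P

theorem p_arith1 (T : Subgroup (Perm α)) (hT : IsSyl2 T) (hs : HSplit T) (htr : HTr T) (h4 : HOrb4 T) :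
    (∀ x x', Two T x → Two T x' → ∃ g ∈ T, g x = x') ∧
    ((∃ x, Two T x) ↔ (Fintype.card α % 4 = 2 ∨ Fintype.card α % 4 = 3)) ∧
    {x : α | Bigp T x}.ncard = 4 * (Fintype.card α / 4) :=
  Cfsg.Agent.H14.SylAlt.arith1 T hT hs htr h4

theorem p_arith2 (T : Subgroup (Perm α)) (hT : IsSyl2 T) (hn : 4 ≤ Fintype.card α)
    (hbig : {x : α | Bigp T x}.ncard = 4 * (Fintype.card α / 4)) :
    (∃ x, Bigp T x) ∧
    ((∃ x₁ x₂, Bigp T x₁ ∧ Bigp T x₂ ∧ ¬ ∃ g ∈ T, g x₁ = x₂) ↔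
      ∀ r : ℕ, 4 * (Fintype.card α / 4) ≠ 2 ^ r) ∧
    (8 ≤ Fintype.card α → ∀ x, Bigp T x → (∀ x', Bigp T x' → ∃ g ∈ T, g x = x') →
      8 ≤ (orb T x).ncard) :=
  Cfsg.Agent.H11.SylAlt.arith2 T hT hn hbig

end Cfsg.Agent.Lib.Lead.SylAlt
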