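import Mathlib
import Cfsg.Agent.Lib.Lead.SylAlt.Defs
import Cfsg.Agent.Lib.Lead.SylAlt.Pieces

/-! lead: assembly of the S2221 pieces -/

namespace Cfsg.Agent.Lib.Lead.SylAlt

open Equiv


variable {α : Type*} [Fintype α] [DecidableEq α]

theorem orb_eq_of_mem {T : Subgroup (Perm α)} {x y : α} (h : y ∈ orb T x) : orb T y = orb T x := by
  obtain ⟨g, hg, rfl⟩ := h
  ext z
  constructor
  · rintro ⟨k, hk, rfl⟩
    exact ⟨k * g, T.mul_mem hk hg, rfl⟩
  · rintro ⟨k, hk, rfl⟩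
    exact ⟨k * g⁻¹, T.mul_mem hk (T.inv_mem hg), by simp⟩

theorem bigp_of_moved (T : Subgroup (Perm α)) (hno2 : ∀ x, ¬ Two T x) (u : α)
    (hu : ∃ g ∈ T, g u ≠ u) : Bigp T u := by
  intro y
  by_contra h
  simp only [not_exists, not_and, not_not] at h
  obtain ⟨g0, hg0, hg0u⟩ := hu
  have hy : g0 u = y := h g0 hg0 hg0u
  refine hno2 u ⟨y, ?_, ⟨g0, hg0, hy⟩, fun g hg => ?_⟩
  · rw [← hy]; exact hg0u
  · by_cases hgu : g u = u
    · exact Or.inl hgu
    · exact Or.inr (h g hg hgu)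

theorem swap_mem_res (T : Subgroup (Perm α)) (htr : HTr T) (x : α) (hx : Bigp T x) :
    ∃ y, y ≠ x ∧ swap x y ∈ res T (orb T x) := by
  obtain ⟨g, hg, hg1, -⟩ := hx x
  obtain ⟨y, hy, hsw⟩ := htr x ⟨g, hg, hg1⟩
  refine ⟨y, hy, hsw, fun u hu => ?_⟩
  have hux : u ≠ x := fun h => hu (h ▸ mem_orb_self T x)
  have huy : u ≠ y := fun h => hu ⟨swap x y, hsw, by rw [swap_apply_left, h]⟩
  exact swap_apply_of_ne_of_ne hux huy

theorem multi (T : Subgroup (Perm α)) (hT : IsSyl2 T) (hno2 : ∀ x, ¬ Two T x)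
    (x₁ x₂ : α) (h₁ : Bigp T x₁) (h₂ : Bigp T x₂) (h12 : ¬ ∃ g ∈ T, g x₁ = x₂) :
    ¬ Dec (T ⊓ alternatingGroup α) := by
  have hs := p_split T hT
  have htr := p_transp T hT
  have h4 := p_orb4 T hT.1
  have hz := p_zeven T hT hno2 htr h4
  have hzone := p_zoneA T hT hs htr
  have hnonab := p_nonab T hT hs htr
  have hcent := p_cent T hT hs htr
  rintro ⟨S₁, S₂, hS1, hS2, hS⟩
  have hS' : Cfsg.IsInternalDirectProduct S₂ S₁ (T ⊓ alternatingGroup α) := by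
    obtain ⟨a1, a2, a3, a4, a5⟩ := hS
    exact ⟨a2, a1, fun a ha b hb => (a3 b hb a ha).symm, by rw [inf_comm]; exact a4,
      by rw [sup_comm]; exact a5⟩
  -- an odd element of T outside each big orbit
  have hodd : ∀ x, Bigp T x → ∃ t' ∈ res T (orb T x)ᶜ, Perm.sign t' = -1 := by
    intro x hx
    have hex : ∃ z, Bigp T z ∧ z ∉ orb T x := by
      by_cases h : x₁ ∈ orb T x
      · refine ⟨x₂, h₂, fun h' => h12 ?_⟩
        obtain ⟨g, hg, hg1⟩ := h
        obtain ⟨k, hk, hk2⟩ := h'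
        exact ⟨k * g⁻¹, T.mul_mem hk (T.inv_mem hg), by
          rw [Perm.mul_apply, ← hg1]; simp [hk2]⟩
      · exact ⟨x₁, h₁, h⟩
    obtain ⟨z, hzb, hzx⟩ := hex
    obtain ⟨y, hyz, hsw⟩ := swap_mem_res T htr z hzb
    refine ⟨swap z y, ⟨hsw.1, fun u hu => ?_⟩, Perm.sign_swap hyz.symm⟩
    have hu' : u ∈ orb T x := by
      by_contra h
      exact hu h
    apply hsw.2 u
    intro huz
    apply hzx
    obtain ⟨g, hg, hgu⟩ := hu'
    obtain ⟨k, hk, hku⟩ := huz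
    exact ⟨k⁻¹ * g, T.mul_mem (T.inv_mem hk) hg, by
      rw [Perm.mul_apply, hgu, ← hku]; simp⟩
  -- dichotomy on each big orbit
  have hdich : ∀ x, Bigp T x →
      (∀ a ∈ proj T (orb T x) S₁, ∀ w ∈ res T (orb T x), a * w = w * a) ∨
      (∀ b ∈ proj T (orb T x) S₂, ∀ w ∈ res T (orb T x), b * w = w * b) := by
    intro x hx
    obtain ⟨t', ht', hodd'⟩ := hodd x hx
    obtain ⟨hcomm, hsup⟩ := p_proj_sup T hT hs x t' ht' hodd' S₁ S₂ hS
    exact hcent x hx _ _ (proj_le _ _ _) (proj_le _ _ _) hcomm hsup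
  by_cases hA : ∀ x, Bigp T x → ∀ a ∈ proj T (orb T x) S₁, ∀ w ∈ res T (orb T x), a * w = w * a
  · exact hS1 (p_endgame T hT hno2 hs htr hzone hnonab x₁ x₂ h₁ h₂ h12 S₁ S₂ hS hA)
  by_cases hB : ∀ x, Bigp T x → ∀ b ∈ proj T (orb T x) S₂, ∀ w ∈ res T (orb T x), b * w = w * b
  · exact hS2 (p_endgame T hT hno2 hs htr hzone hnonab x₁ x₂ h₁ h₂ h12 S₂ S₁ hS' hB)
  push_neg at hA hB
  obtain ⟨x, hx, hxA⟩ := hA
  obtain ⟨x', hx', hxB⟩ := hB
  have hP2 : ∀ b ∈ proj T (orb T x) S₂, ∀ w ∈ res T (orb T x), b * w = w * b := by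
    rcases hdich x hx with h | h
    · exfalso
      obtain ⟨a, ha, w, hw, hne⟩ := hxA
      exact hne (h a ha w hw)
    · exact h
  have hP1 : ∀ a ∈ proj T (orb T x') S₁, ∀ w ∈ res T (orb T x'), a * w = w * a := by
    rcases hdich x' hx' with h | h
    · exact h
    · exfalso
      obtain ⟨b, hb, w, hw, hne⟩ := hxB
      exact hne (h b hb w hw)
  by_cases hsame : ∃ g ∈ T, g x = x'
  · have heq : orb T x' = orb T x := orb_eq_of_mem hsame
    obtain ⟨b, hb, w, hw, hne⟩ := hxB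
    rw [heq] at hb hw
    exact hne (hP2 b hb w hw)
  · obtain ⟨y, hy, hsw⟩ := swap_mem_res T htr x hx
    obtain ⟨y', hy', hsw'⟩ := swap_mem_res T htr x' hx'
    exact p_no_mixed T hT hs hz x x' hsame (swap x y) (swap x' y') hsw hsw'
      (Perm.sign_swap hy.symm) (Perm.sign_swap hy'.symm) S₁ S₂ hS hP2 hP1

theorem final (n : ℕ) (hn : 4 ≤ n) (P : Sylow 2 (alternatingGroup (Fin n))) :
    (∃ S₁ S₂ : Subgroup (alternatingGroup (Fin n)), S₁ ≠ ⊥ ∧ S₂ ≠ ⊥ ∧
        Cfsg.IsInternalDirectProduct S₁ S₂ (P : Subgroup (alternatingGroup (Fin n)))) ↔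
      (n = 4 ∨ n = 5 ∨ ((n % 4 = 2 ∨ n % 4 = 3) ∧ ∀ r : ℕ, 4 * (n / 4) ≠ 2 ^ r)) := by
  by_cases h45 : n = 4 ∨ n = 5
  · constructor
    · intro _
      rcases h45 with h | h
      · exact Or.inl h
      · exact Or.inr (Or.inl h)
    · intro _
      exact p_small45 n h45 P
  · have hn6 : 6 ≤ n := by omega
    obtain ⟨T, hT, hiff⟩ := p_lift n P
    rw [hiff]
    have hs := p_split T hT
    have htr := p_transp T hT
    have h4 := p_orb4 T hT.1
    obtain ⟨htwo1, htwoiff, hbig⟩ := p_arith1 T hT hs htr h4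
    have hcard : Fintype.card (Fin n) = n := Fintype.card_fin n
    obtain ⟨hex, hmulti, h8⟩ := p_arith2 T hT (by rw [hcard]; omega) hbig
    rw [hcard] at htwoiff hmulti h8
    have hzone := p_zoneA T hT hs htr
    constructor
    · intro hdec
      right; right
      by_contra hcon
      by_cases hmod : n % 4 = 2 ∨ n % 4 = 3
      · have hpow : ¬ ∀ r : ℕ, 4 * (n / 4) ≠ 2 ^ r := fun h => hcon ⟨hmod, h⟩
        have hone : ¬ ∃ x₁ x₂, Bigp T x₁ ∧ Bigp T x₂ ∧ ¬ ∃ g ∈ T, g x₁ = x₂ :=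
          fun h => hpow (hmulti.1 h)
        obtain ⟨x₀, h0⟩ := htwoiff.2 hmod
        obtain ⟨x₁, h₁⟩ := hex
        have hone' : ∀ x, Bigp T x → ∃ g ∈ T, g x₁ = x := by
          intro x hx
          by_contra h
          exact hone ⟨x₁, x, h₁, hx, h⟩
        obtain ⟨S₁, S₂, hS1, hS2, hS⟩ := hdec
        exact p_abs1 (T ⊓ alternatingGroup (Fin n)) (hT.1.to_le inf_le_left)
          (fun c c' hc hc' hc1 hc1' hcen hcen' =>
            p_ind_two T hT hs htr hzone x₀ h0 x₁ h₁ hone' (fun x hx => htwo1 x₀ x h0 hx)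
              c c' hc hc' hc1 hc1' hcen hcen')
          S₁ S₂ hS1 hS2 hS
      · have hno2 : ∀ x, ¬ Two T x := fun x hx => hmod (htwoiff.1 ⟨x, hx⟩)
        have hn8 : 8 ≤ n := by omega
        by_cases hm : ∃ x₁ x₂, Bigp T x₁ ∧ Bigp T x₂ ∧ ¬ ∃ g ∈ T, g x₁ = x₂
        · obtain ⟨x₁, x₂, h₁, h₂, h12⟩ := hm
          exact multi T hT hno2 x₁ x₂ h₁ h₂ h12 hdec
        · obtain ⟨x₁, h₁⟩ := hex
          have hone' : ∀ x, Bigp T x → ∃ g ∈ T, g x₁ = x := by
            intro x hx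
            by_contra h
            exact hm ⟨x₁, x, h₁, hx, h⟩
          have h8' := h8 hn8 x₁ h₁ hone'
          have hres : res T (orb T x₁) = T := by
            apply le_antisymm (res_le _ _)
            intro g hg
            refine ⟨hg, fun u hu => ?_⟩
            by_contra hgu
            have hub : Bigp T u := bigp_of_moved T hno2 u ⟨g, hg, hgu⟩
            exact hu (hone' u hub)
          obtain ⟨S₁, S₂, hS1, hS2, hS⟩ := hdec
          exact p_abs1 (T ⊓ alternatingGroup (Fin n)) (hT.1.to_le inf_le_left)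
            (fun c c' hc hc' hc1 hc1' hcen hcen' =>
              p_zoneB T hT hs htr x₁ h8' c c' (by rw [hres]; exact hc) (by rw [hres]; exact hc')
                hc1 hc1' (by rw [hres]; exact hcen) (by rw [hres]; exact hcen'))
            S₁ S₂ hS1 hS2 hS
    · rintro (h | h | ⟨hmod, hpow⟩)
      · exact absurd (Or.inl h) h45
      · exact absurd (Or.inr h) h45
      · obtain ⟨x₀, h0⟩ := htwoiff.2 hmod
        obtain ⟨x₁, x₂, h₁, h₂, h12⟩ := hmulti.2 hpow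
        exact p_dec_two T hT hs htr x₀ h0 x₁ x₂ h₁ h₂ h12

end Cfsg.Agent.Lib.Lead.SylAlt
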